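import Mathlib

/-!
# Norm maps of endomorphisms of finite groups with few fixed points (helper22)

* `nrm σ n x = x σ(x) … σ^(n-1)(x)`;
* `exists_many` : if `σ^m = 1` and `σ` has at most `e` fixed points, then for every `z : T → C` there is `g` such that
  `nrm σ m (g z(t)) = 1` for at least `|T| / e` values of `t`;
* `coeff_zero_of_many` : the polynomial identity.
-/

set_option autoImplicit false
set_option linter.unusedSectionVars false
set_option linter.deprecated false

namespace Cfsg.Agent.R2.H22.Norm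

open Finset

universe u v

section grp

variable {G : Type u} [Group G]

/-- the norm -/
def nrm (σ : G →* G) : ℕ → G → G
  | 0, _ => 1
  | n + 1, x => x * σ (nrm σ n x)

theorem nrm_zero (σ : G →* G) (x : G) : nrm σ 0 x = 1 := rfl

theorem nrm_succ (σ : G →* G) (n : ℕ) (x : G) : nrm σ (n + 1) x = x * σ (nrm σ n x) := rfl

theorem nrm_succ' (σ : G →* G) (n : ℕ) (x : G) : nrm σ (n + 1) x = nrm σ n x * σ^[n] x := by
  induction n with
  | zero => rw [nrm_succ, nrm_zero, map_one, mul_one, one_mul]; rfl
  | succ n ih =>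
    rw [nrm_succ, ih, map_mul, ← mul_assoc, ← nrm_succ, ih, Function.iterate_succ_apply']

theorem nrm_coboundary (σ : G →* G) (n : ℕ) (y : G) : nrm σ n (y⁻¹ * σ y) = y⁻¹ * σ^[n] y := by
  induction n with
  | zero => rw [nrm_zero]; exact (inv_mul_cancel y).symm
  | succ n ih =>
    rw [nrm_succ, ih, map_mul, map_inv, Function.iterate_succ_apply']
    group

theorem exists_many [Fintype G] [DecidableEq G] (σ : G →* G) (m : ℕ) (hm : ∀ x, σ^[m] x = x) (e : ℕ)
    (he : (univ.filter fun x => σ x = x).card ≤ e) {T : Type v} [Fintype T] [Nonempty T] (z : T → G) :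
    ∃ g, Fintype.card T ≤ e * (univ.filter fun t => nrm σ m (g * z t) = 1).card := by
  classical
  by_contra hcon
  push Not at hcon
  set S : Finset G := univ.filter fun x => nrm σ m x = 1 with hS
  -- the image of the Lang map
  have h1 : Fintype.card G ≤ e * S.card := by
    have h2 : ∀ y ∈ (univ : Finset G), y⁻¹ * σ y ∈ S := by
      intro y _
      rw [hS, mem_filter]
      exact ⟨mem_univ _, by rw [nrm_coboundary, hm, inv_mul_cancel]⟩
    have h3 := Finset.card_le_mul_card_image_of_maps_to h2 e (by
      intro x _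
      rcases Finset.eq_empty_or_nonempty ((univ : Finset G).filter fun y => y⁻¹ * σ y = x) with h0 | ⟨y0, hy0⟩
      · rw [h0]; simp
      · refine le_trans (Finset.card_le_card_of_injOn (fun y => y * y0⁻¹) ?_ ?_) he
        · intro y hy
          have hy' := (mem_filter.1 (Finset.mem_coe.1 hy)).2
          have hy0' := (mem_filter.1 hy0).2
          rw [Finset.mem_coe, mem_filter]
          refine ⟨mem_univ _, ?_⟩
          have e1 : σ y = y * x := by rw [← hy']; group
          have e2 : σ y0 = y0 * x := by rw [← hy0']; group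
          rw [map_mul, map_inv, e1, e2]
          group
        · intro y _ y' _ h
          exact mul_right_cancel h)
    rwa [Finset.card_univ] at h3
  -- double counting
  have h4 : ∑ g : G, (univ.filter fun t => nrm σ m (g * z t) = 1).card = Fintype.card T * S.card := by
    have h5 : ∀ t : T, (univ.filter fun g => nrm σ m (g * z t) = 1).card = S.card := by
      intro t
      refine Finset.card_bij (fun g _ => g * z t) ?_ ?_ ?_
      · intro g hg
        rw [hS, mem_filter]
        exact ⟨mem_univ _, (mem_filter.1 hg).2⟩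
      · intro g _ g' _ h
        exact mul_right_cancel h
      · intro x hx
        refine ⟨x * (z t)⁻¹, ?_, by group⟩
        rw [mem_filter]
        refine ⟨mem_univ _, ?_⟩
        rw [inv_mul_cancel_right]
        exact (mem_filter.1 hx).2
    have h6 : ∀ g : G, (univ.filter fun t => nrm σ m (g * z t) = 1).card =
        ∑ t : T, if nrm σ m (g * z t) = 1 then 1 else 0 := fun g => by rw [Finset.card_filter]
    simp only [h6]
    rw [Finset.sum_comm]
    have h7 : ∀ t : T, ∑ g : G, (if nrm σ m (g * z t) = 1 then 1 else 0) = S.card := fun t => by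
      rw [← h5 t, Finset.card_filter]
    simp only [h7]
    rw [Finset.sum_const, Finset.card_univ, smul_eq_mul]
  have h8 : ∑ g : G, e * (univ.filter fun t => nrm σ m (g * z t) = 1).card < ∑ _g : G, Fintype.card T := by
    refine Finset.sum_lt_sum_of_nonempty ⟨1, mem_univ _⟩ fun g _ => hcon g
  rw [← Finset.mul_sum, h4, Finset.sum_const, Finset.card_univ, smul_eq_mul] at h8
  have h9 : Fintype.card G * Fintype.card T ≤ e * S.card * Fintype.card T := Nat.mul_le_mul_right _ h1
  nlinarith

end grp

/-! ### polynomial matrices -/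

section pol

open Polynomial

variable {E : Type u} [Field E] {n : Type v} [Fintype n] [DecidableEq n]

/-- entrywise degree bound -/
def Bd (d : ℕ) (P : Matrix n n E[X]) : Prop := ∀ i j, (P i j).natDegree ≤ d

theorem Bd.mul {d d' : ℕ} {P P' : Matrix n n E[X]} (h : Bd d P) (h' : Bd d' P') : Bd (d + d') (P * P') := by
  intro i j
  rw [Matrix.mul_apply]
  refine Polynomial.natDegree_sum_le_of_forall_le _ _ fun k _ => ?_
  exact (Polynomial.natDegree_mul_le).trans (Nat.add_le_add (h i k) (h' k j))

theorem Bd.one : Bd 0 (1 : Matrix n n E[X]) := by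
  intro i j
  rw [Matrix.one_apply]
  split_ifs
  · exact natDegree_one.le
  · exact natDegree_zero.le

theorem Bd.const (A : Matrix n n E) : Bd 0 (A.map C) := by
  intro i j
  rw [Matrix.map_apply]
  exact (natDegree_C _).le

/-- the elementary factor -/
noncomputable def fac (A N : Matrix n n E) (k : ℕ) : Matrix n n E[X] := A.map C * (1 + (X ^ k : E[X]) • N.map C)

theorem Bd.fac (A N : Matrix n n E) (k : ℕ) : Bd k (fac A N k) := by
  have h1 : Bd k (1 + (X ^ k : E[X]) • N.map C) := by
    intro i j
    rw [Matrix.add_apply, Matrix.smul_apply, smul_eq_mul, Matrix.map_apply]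
    refine (natDegree_add_le _ _).trans (max_le ((Bd.one i j).trans (Nat.zero_le _)) ?_)
    refine natDegree_mul_le.trans ?_
    rw [natDegree_C, add_zero, natDegree_X_pow]
  have h2 := (Bd.const A).mul h1
  rwa [zero_add] at h2

theorem eval_fac (A N : Matrix n n E) (k : ℕ) (t : E) :
    (fac A N k).map (eval t) = A * (1 + t ^ k • N) := by
  ext i j
  rw [Matrix.map_apply, Norm.fac, Matrix.mul_apply, Matrix.mul_apply, eval_finset_sum]
  refine Finset.sum_congr rfl fun l _ => ?_
  rw [eval_mul, Matrix.map_apply, eval_C, Matrix.add_apply, Matrix.smul_apply, smul_eq_mul, Matrix.map_apply,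
    eval_add, eval_mul, eval_pow, eval_X, eval_C, Matrix.add_apply, Matrix.smul_apply, smul_eq_mul, Matrix.one_apply,
    Matrix.one_apply]
  split_ifs
  · rw [eval_one]
  · rw [eval_zero]

theorem eval_mul_mat (P Q : Matrix n n E[X]) (t : E) : (P * Q).map (eval t) = P.map (eval t) * Q.map (eval t) := by
  ext i j
  rw [Matrix.map_apply, Matrix.mul_apply, Matrix.mul_apply, eval_finset_sum]
  exact Finset.sum_congr rfl fun l _ => eval_mul

theorem coeff_zero_mul (P Q : Matrix n n E[X]) : (P * Q).map (coeff · 0) = P.map (coeff · 0) * Q.map (coeff · 0) := by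
  ext i j
  rw [Matrix.map_apply, Matrix.mul_apply, Matrix.mul_apply, finset_sum_coeff]
  exact Finset.sum_congr rfl fun l _ => mul_coeff_zero _ _

theorem coeff_one_mul (P Q : Matrix n n E[X]) : (P * Q).map (coeff · 1) =
    P.map (coeff · 0) * Q.map (coeff · 1) + P.map (coeff · 1) * Q.map (coeff · 0) := by
  ext i j
  rw [Matrix.map_apply, Matrix.mul_apply, Matrix.add_apply, Matrix.mul_apply, Matrix.mul_apply, finset_sum_coeff,
    ← Finset.sum_add_distrib]
  exact Finset.sum_congr rfl fun l _ => mul_coeff_one _ _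

theorem coeff_zero_fac (A N : Matrix n n E) {k : ℕ} (hk : 1 ≤ k) : (fac A N k).map (coeff · 0) = A := by
  unfold Norm.fac
  rw [coeff_zero_mul]
  have h1 : (A.map C : Matrix n n E[X]).map (coeff · 0) = A := by
    ext i j
    simp
  have h2 : (1 + (X ^ k : E[X]) • N.map C : Matrix n n E[X]).map (coeff · 0) = 1 := by
    ext i j
    rw [Matrix.map_apply, Matrix.add_apply, coeff_add, Matrix.smul_apply, smul_eq_mul, Matrix.map_apply,
      coeff_X_pow_mul', if_neg (by omega), add_zero, Matrix.one_apply, Matrix.one_apply]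
    split_ifs <;> simp
  rw [h1, h2, mul_one]

theorem coeff_one_fac (A N : Matrix n n E) {k : ℕ} (hk : 1 ≤ k) :
    (fac A N k).map (coeff · 1) = if k = 1 then A * N else 0 := by
  unfold Norm.fac
  rw [coeff_one_mul]
  have h1 : (A.map C : Matrix n n E[X]).map (coeff · 0) = A := by
    ext i j
    simp
  have h1' : (A.map C : Matrix n n E[X]).map (coeff · 1) = 0 := by
    ext i j
    rw [Matrix.map_apply, Matrix.map_apply, coeff_C]
    rfl
  have h2 : (1 + (X ^ k : E[X]) • N.map C : Matrix n n E[X]).map (coeff · 1) = if k = 1 then N else 0 := by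
    ext i j
    rw [Matrix.map_apply, Matrix.add_apply, coeff_add, Matrix.smul_apply, smul_eq_mul, Matrix.map_apply,
      coeff_X_pow_mul', Matrix.one_apply]
    have h3 : (if i = j then (1 : E[X]) else 0).coeff 1 = 0 := by
      split_ifs
      · rw [coeff_one, if_neg one_ne_zero]
      · exact coeff_zero 1
    rw [h3, zero_add]
    by_cases hk1 : k = 1
    · rw [if_pos hk1, if_pos (by omega), hk1, Nat.sub_self, coeff_C_zero]
    · rw [if_neg hk1, if_neg (by omega)]
      rfl
  rw [h1, h1', h2, zero_mul, add_zero]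
  split_ifs
  · rfl
  · rw [mul_zero]

/-- the product -/
noncomputable def prd (A N : ℕ → Matrix n n E) (r : ℕ) : ℕ → Matrix n n E[X]
  | 0 => 1
  | k + 1 => prd A N r k * fac (A k) (N k) (r ^ k)

theorem Bd.prd (A N : ℕ → Matrix n n E) (r k : ℕ) : Bd (∑ i ∈ range k, r ^ i) (prd A N r k) := by
  induction k with
  | zero => exact Bd.one
  | succ k ih =>
    rw [Finset.sum_range_succ]
    exact ih.mul (Bd.fac _ _ _)

theorem coeff_zero_prd (A N : ℕ → Matrix n n E) {r : ℕ} (hr : 2 ≤ r) (hA : ∀ k, IsUnit (A k)) (k : ℕ) :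
    IsUnit ((prd A N r k).map (coeff · 0)) := by
  induction k with
  | zero =>
    have : ((1 : Matrix n n E[X]).map (coeff · 0)) = 1 := by
      ext i j
      rw [Matrix.map_apply, Matrix.one_apply, Matrix.one_apply]
      split_ifs <;> simp
    show IsUnit ((1 : Matrix n n E[X]).map (coeff · 0))
    rw [this]
    exact isUnit_one
  | succ k ih =>
    show IsUnit ((prd A N r k * fac (A k) (N k) (r ^ k)).map (coeff · 0))
    rw [coeff_zero_mul, coeff_zero_fac _ _ (Nat.one_le_pow _ _ (by omega))]
    exact ih.mul (hA k)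

theorem coeff_one_prd (A N : ℕ → Matrix n n E) {r : ℕ} (hr : 2 ≤ r) (hA : ∀ k, IsUnit (A k)) (k : ℕ) :
    ∃ B : Matrix n n E, IsUnit B ∧ (prd A N r (k + 1)).map (coeff · 1) = A 0 * N 0 * B := by
  induction k with
  | zero =>
    refine ⟨1, isUnit_one, ?_⟩
    show ((1 : Matrix n n E[X]) * fac (A 0) (N 0) (r ^ 0)).map (coeff · 1) = _
    rw [one_mul, pow_zero, coeff_one_fac _ _ le_rfl, if_pos rfl, mul_one]
  | succ k ih =>
    obtain ⟨B, hB, e⟩ := ih
    refine ⟨B * A (k + 1), hB.mul (hA _), ?_⟩
    show (prd A N r (k + 1) * fac (A (k + 1)) (N (k + 1)) (r ^ (k + 1))).map (coeff · 1) = _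
    have h1 : 2 ≤ r ^ (k + 1) := by
      calc 2 ≤ r := hr
        _ = r ^ 1 := (pow_one r).symm
        _ ≤ r ^ (k + 1) := Nat.pow_le_pow_right (by omega) (by omega)
    rw [coeff_one_mul, e, coeff_zero_fac _ _ (by omega), coeff_one_fac _ _ (by omega), if_neg (by omega), mul_zero,
      zero_add, mul_assoc]

theorem eval_prd (A N : ℕ → Matrix n n E) (r k : ℕ) (t : E) :
    (prd A N r (k + 1)).map (eval t) = (prd A N r k).map (eval t) * (A k * (1 + t ^ (r ^ k) • N k)) := by
  show (prd A N r k * fac (A k) (N k) (r ^ k)).map (eval t) = _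
  rw [eval_mul_mat, eval_fac]

/-- **the polynomial identity** -/
theorem eq_zero_of_many {A N : ℕ → Matrix n n E} {r m : ℕ} (hr : 2 ≤ r) (hm : 1 ≤ m) (hA : ∀ k, IsUnit (A k))
    (T : Finset E) (hT : ∑ i ∈ range m, r ^ i < T.card) (h : ∀ t ∈ T, (prd A N r m).map (eval t) = 1) : N 0 = 0 := by
  obtain ⟨m, rfl⟩ : ∃ k, m = k + 1 := ⟨m - 1, by omega⟩
  have h1 : prd A N r (m + 1) = 1 := by
    ext1 i j
    refine Polynomial.eq_of_degree_sub_lt_of_eval_finset_eq T ?_ fun t ht => ?_
    · refine lt_of_le_of_lt (Polynomial.degree_le_of_natDegree_le (n := ∑ i ∈ range (m + 1), r ^ i) ?_) (by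
        exact_mod_cast hT)
      refine (natDegree_sub_le _ _).trans (max_le (Bd.prd A N r _ i j) ((Bd.one i j).trans (Nat.zero_le _)))
    · have h2 := congrFun (congrFun (h t ht) i) j
      rw [Matrix.map_apply] at h2
      rw [h2, Matrix.one_apply, Matrix.one_apply]
      split_ifs
      · rw [eval_one]
      · rw [eval_zero]
  obtain ⟨B, hB, e⟩ := coeff_one_prd A N hr hA m
  rw [h1] at e
  have h3 : ((1 : Matrix n n E[X]).map (coeff · 1)) = 0 := by
    ext i j
    rw [Matrix.map_apply, Matrix.one_apply]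
    split_ifs
    · rw [coeff_one, if_neg one_ne_zero]
      rfl
    · exact coeff_zero 1
  rw [h3] at e
  have h4 : A 0 * N 0 = 0 := (hB.mul_left_eq_zero).1 e.symm
  exact ((hA 0).mul_right_eq_zero).1 h4

end pol

end Cfsg.Agent.R2.H22.Norm
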