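import Cfsg.Agent.R2.H28.SL2.Kills

/-!
# Modules of `SL(2, 7)`: general lemmas (helper22)

* `Ew` : the space of the vectors fixed by `U` of weight `e`; `finrank_Ew_le`;
* `finrank_ker_pow_le`, `finrank_le_ufix`.
-/

set_option autoImplicit false
set_option linter.unusedSectionVars false

namespace Cfsg.Agent.R2.H22.Q7

open Matrix Cfsg.Agent.H943.SL2Rel Cfsg.Agent.H943.SL2Mod Cfsg.Agent.H943.RepAdd
open Cfsg.Agent.R2.H28.SL2

universe u v w

section Lin

variable {k : Type*} [Field k] {V : Type*} [AddCommGroup V] [Module k V] [FiniteDimensional k V]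

theorem finrank_comap_le (f : V →ₗ[k] V) (S : Submodule k V) :
    Module.finrank k (S.comap f) ≤ Module.finrank k (LinearMap.ker f) + Module.finrank k S := by
  let g : S.comap f →ₗ[k] S := f.restrict (fun _ hx => hx)
  have h1 := LinearMap.finrank_range_add_finrank_ker g
  have h2 : Module.finrank k (LinearMap.range g) ≤ Module.finrank k S := Submodule.finrank_le _
  have h3 : Module.finrank k (LinearMap.ker g) ≤ Module.finrank k (LinearMap.ker f) := by
    let e : LinearMap.ker g →ₗ[k] LinearMap.ker f :=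
      LinearMap.codRestrict (LinearMap.ker f) ((S.comap f).subtype ∘ₗ (LinearMap.ker g).subtype) (fun x => by
        rw [LinearMap.mem_ker]
        exact congrArg Subtype.val x.2)
    refine LinearMap.finrank_le_finrank_of_injective (f := e) fun x y hxy => ?_
    have h4 : ((e x : LinearMap.ker f) : V) = ((e y : LinearMap.ker f) : V) := by rw [hxy]
    exact Subtype.ext (Subtype.ext h4)
  omega

theorem finrank_ker_pow_le (f : V →ₗ[k] V) (n : ℕ) :
    Module.finrank k (LinearMap.ker (f ^ n)) ≤ n * Module.finrank k (LinearMap.ker f) := by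
  induction n with
  | zero =>
    have : LinearMap.ker (f ^ 0) = ⊥ := by
      rw [eq_bot_iff]
      intro x hx
      rw [LinearMap.mem_ker, pow_zero, Module.End.one_apply] at hx
      exact hx
    rw [this, finrank_bot]
    omega
  | succ n ih =>
    have h1 : LinearMap.ker (f ^ (n + 1)) = (LinearMap.ker (f ^ n)).comap f := by
      ext x
      rw [Submodule.mem_comap, LinearMap.mem_ker, LinearMap.mem_ker, pow_succ, Module.End.mul_apply]
    rw [h1]
    have h2 := finrank_comap_le f (LinearMap.ker (f ^ n))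
    rw [Nat.succ_mul]
    omega

end Lin

variable {k : Type u} [Field k] [DecidableEq k] {F : Type w} [Field F] [Fintype F] [DecidableEq F] (ι : F →+* k)
variable (p : ℕ) [Fact p.Prime] [CharP k p] [CharP F p]

/-- the vectors of weight `e` fixed by `U` -/
def Ew {V : Type*} [AddCommGroup V] [Module k V] (ρ : Representation k (SpecialLinearGroup (Fin 2) F) V) (e : ℕ) :
    Submodule k V where
  carrier := {x | (∀ t, ρ (u t) x = x) ∧ ∀ a : Fˣ, ρ (h a) x = ι (a : F) ^ e • x}
  zero_mem' := ⟨fun _ => map_zero _, fun _ => by rw [map_zero, smul_zero]⟩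
  add_mem' := fun {x y} hx hy => ⟨fun t => by rw [map_add, hx.1, hy.1], fun a => by rw [map_add, hx.2, hy.2, smul_add]⟩
  smul_mem' := fun c x hx => ⟨fun t => by rw [map_smul, hx.1], fun a => by rw [map_smul, hx.2, smul_comm]⟩

theorem mem_Ew {V : Type*} [AddCommGroup V] [Module k V] {ρ : Representation k (SpecialLinearGroup (Fin 2) F) V} {e : ℕ}
    {x : V} : x ∈ Ew ι ρ e ↔ (∀ t, ρ (u t) x = x) ∧ ∀ a : Fˣ, ρ (h a) x = ι (a : F) ^ e • x := Iff.rfl

/-- the `U`-fixed vectors -/
def Uf {V : Type*} [AddCommGroup V] [Module k V] (ρ : Representation k (SpecialLinearGroup (Fin 2) F) V) :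
    Submodule k V where
  carrier := {x | ∀ t, ρ (u t) x = x}
  zero_mem' := fun _ => map_zero _
  add_mem' := fun {x y} hx hy t => by rw [map_add, hx t, hy t]
  smul_mem' := fun c x hx t => by rw [map_smul, hx t]

theorem mem_Uf {V : Type*} [AddCommGroup V] [Module k V] {ρ : Representation k (SpecialLinearGroup (Fin 2) F) V}
    {x : V} : x ∈ Uf ρ ↔ ∀ t, ρ (u t) x = x := Iff.rfl

variable [IsAlgClosed k]

theorem mod_of_Ew {V : Type*} [AddCommGroup V] [Module k V] {ρ : Representation k (SpecialLinearGroup (Fin 2) F) V}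
    {b e : ℕ} (hV : IsV ι p ρ b) {x : V} (hx : x ∈ Ew ι ρ e) (hx0 : x ≠ 0) :
    b % (Fintype.card F - 1) = e % (Fintype.card F - 1) := by
  obtain ⟨m, hm0, -, hmh, -, hm⟩ := IsV.hw ι p hV
  obtain ⟨c, hc⟩ := hm x hx.1
  refine mod_of_pow ι fun a => ?_
  have h1 := hx.2 a
  rw [hc, map_smul, hmh, smul_comm, ← hc] at h1
  have h2 : (ι (a : F) ^ b - ι (a : F) ^ e) • x = 0 := by rw [sub_smul, h1, sub_self]
  exact sub_eq_zero.1 ((smul_eq_zero.1 h2).resolve_right hx0)

/-- **the dimension of the highest weight spaces** -/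
theorem finrank_Ew_le' {e : ℕ} (n : ℕ) : ∀ {V : Type v} [AddCommGroup V] [Module k V] [FiniteDimensional k V]
    {ρ : Representation k (SpecialLinearGroup (Fin 2) F) V} {s : Multiset ℕ}, JHn (Sy.{u, v, w} ι p) n ρ s →
    Module.finrank k (Ew ι ρ e) ≤ s.countP fun b => b % (Fintype.card F - 1) = e % (Fintype.card F - 1) := by
  induction n with
  | zero =>
    intro V _ _ _ ρ s hs
    have := hs.1
    rw [Module.finrank_zero_of_subsingleton]
    exact Nat.zero_le _
  | succ n ih =>
    intro V _ _ _ ρ s hs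
    obtain ⟨W, hW, b, t, hb, rfl, ht⟩ := hs
    have hb' : IsV ι p (subRep ρ W hW) b := hb
    let f : Ew ι ρ e →ₗ[k] Ew ι (quotRep ρ W hW) e :=
      LinearMap.codRestrict _ (W.mkQ ∘ₗ (Ew ι ρ e).subtype) (fun x => ⟨fun t => by
        show quotRep ρ W hW (u t) (W.mkQ x) = W.mkQ x
        rw [quotRep_mk, x.2.1 t], fun a => by
        show quotRep ρ W hW (h a) (W.mkQ x) = _ • W.mkQ x
        rw [quotRep_mk, x.2.2 a, map_smul]⟩)
    have h1 := LinearMap.finrank_range_add_finrank_ker f
    have h2 : Module.finrank k (LinearMap.range f) ≤ Module.finrank k (Ew ι (quotRep ρ W hW) e) :=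
      Submodule.finrank_le _
    have h3 := ih (ρ := quotRep ρ W hW) ht
    have hmem : ∀ x : LinearMap.ker f, ((x : Ew ι ρ e) : V) ∈ W := by
      intro x
      have h4 : W.mkQ ((x : Ew ι ρ e) : V) = 0 := congrArg Subtype.val (LinearMap.mem_ker.1 x.2)
      exact (Submodule.Quotient.mk_eq_zero W).1 h4
    obtain ⟨m, hm0, -, -, -, hm⟩ := IsV.hw ι p hb'
    rw [Multiset.countP_cons]
    by_cases hbe : b % (Fintype.card F - 1) = e % (Fintype.card F - 1)
    · rw [if_pos hbe]
      have h5 : Module.finrank k (LinearMap.ker f) ≤ 1 := by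
        let g : LinearMap.ker f →ₗ[k] W :=
          LinearMap.codRestrict W ((Ew ι ρ e).subtype ∘ₗ (LinearMap.ker f).subtype) hmem
        have hg : Function.Injective g := fun x y hxy => by
          have h4 : ((g x : W) : V) = ((g y : W) : V) := by rw [hxy]
          exact Subtype.ext (Subtype.ext h4)
        have hle : LinearMap.range g ≤ Submodule.span k {m} := by
          rintro _ ⟨x, rfl⟩
          obtain ⟨c, hc⟩ := hm (g x) fun t => Subtype.ext ((x : Ew ι ρ e).2.1 t)
          rw [hc]
          exact Submodule.smul_mem _ _ (Submodule.mem_span_singleton_self _)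
        have hfW : FiniteDimensional k W := hb'.finite
        rw [← LinearMap.finrank_range_of_inj hg]
        exact (Submodule.finrank_mono hle).trans (finrank_span_le_card _ |>.trans (by simp))
      omega
    · rw [if_neg hbe]
      have h5 : LinearMap.ker f = ⊥ := by
        rw [eq_bot_iff]
        intro x hx
        by_contra hx0
        have hxW := hmem ⟨x, hx⟩
        refine hbe (mod_of_Ew ι p hb' (x := ⟨x, hxW⟩) ⟨fun t => Subtype.ext (x.2.1 t), fun a => Subtype.ext (x.2.2 a)⟩ ?_)
        intro h0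
        apply hx0
        have h4 : (((⟨(x : V), hxW⟩ : W)) : V) = ((0 : W) : V) := by rw [h0]
        exact (Submodule.mem_bot k).2 (Subtype.ext h4)
      rw [h5, finrank_bot] at h1
      omega

theorem finrank_Ew_le {V : Type v} [AddCommGroup V] [Module k V] [FiniteDimensional k V]
    (ρ : Representation k (SpecialLinearGroup (Fin 2) F) V) (e : ℕ) : Module.finrank k (Ew ι ρ e) ≤
      (cf (Sy.{u, v, w} ι p) ρ).countP fun b => b % (Fintype.card F - 1) = e % (Fintype.card F - 1) := by
  obtain ⟨n, hn⟩ := cf_spec (Sy.{u, v, w} ι p) ρ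
  exact finrank_Ew_le' ι p n hn

include p in
/-- the decomposition of the vectors fixed by `U` -/
theorem Uf_le {V : Type*} [AddCommGroup V] [Module k V] (ρ : Representation k (SpecialLinearGroup (Fin 2) F) V) :
    Uf ρ ≤ ⨆ e ∈ Finset.range (Fintype.card F - 1), Ew ι ρ e := by
  have hq := one_lt (F := F)
  intro x hx
  have hane : ∀ a : Fˣ, ι (a : F) ≠ 0 := fun a => (map_ne_zero ι).2 a.ne_zero
  -- the components
  let y : ℕ → V := fun e => ∑ a : Fˣ, ((ι (a : F))⁻¹ ^ e) • ρ (h a) x
  have hy : ∀ e, y e ∈ Ew ι ρ e := by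
    intro e
    refine ⟨fun t => ?_, fun a => ?_⟩
    · show ρ (u t) (∑ a : Fˣ, ((ι (a : F))⁻¹ ^ e) • ρ (h a) x) = _
      rw [map_sum]
      refine Finset.sum_congr rfl fun a _ => ?_
      have h1 : u t * h a = h a * u ((a : F)⁻¹ ^ 2 * t) := by
        rw [h_u, ← mul_assoc, ← mul_pow, mul_inv_cancel₀ a.ne_zero, one_pow, one_mul]
      rw [map_smul, apply_mul, h1, map_mul, Module.End.mul_apply, hx]
    · show ρ (h a) (∑ b : Fˣ, ((ι (b : F))⁻¹ ^ e) • ρ (h b) x) = ι (a : F) ^ e • ∑ b : Fˣ, ((ι (b : F))⁻¹ ^ e) • ρ (h b) x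
      rw [map_sum, Finset.smul_sum]
      refine Fintype.sum_equiv (Equiv.mulLeft a) _ _ fun b => ?_
      rw [map_smul, apply_mul, ← h_mul, smul_smul]
      show _ = (ι (a : F) ^ e * (ι ((a * b : Fˣ) : F))⁻¹ ^ e) • ρ (h (a * b)) x
      congr 1
      rw [Units.val_mul, map_mul, mul_inv, mul_pow, ← mul_assoc, ← mul_pow, mul_inv_cancel₀ (hane a), one_pow, one_mul]
  have hsum : ∑ e ∈ Finset.range (Fintype.card F - 1), y e = -x := by
    show ∑ e ∈ Finset.range (Fintype.card F - 1), ∑ a : Fˣ, ((ι (a : F))⁻¹ ^ e) • ρ (h a) x = -x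
    rw [Finset.sum_comm]
    rw [Finset.sum_eq_single 1]
    · simp only [Units.val_one, map_one, inv_one, one_pow, one_smul, h_one, Module.End.one_apply]
      rw [Finset.sum_const, Finset.card_range, ← Nat.cast_smul_eq_nsmul k, cast_Q p, neg_one_smul]
    · intro a _ ha
      rw [← Finset.sum_smul]
      have h1 : (∑ e ∈ Finset.range (Fintype.card F - 1), (ι (a : F))⁻¹ ^ e) * ((ι (a : F))⁻¹ - 1) = 0 := by
        rw [geom_sum_mul, inv_pow, powQ ι a.ne_zero, inv_one, sub_self]
      have h2 : (ι (a : F))⁻¹ - 1 ≠ 0 := by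
        rw [sub_ne_zero]
        intro h3
        apply ha
        apply Units.ext
        apply ι.injective
        rw [Units.val_one, map_one, ← inv_inv (ι (a : F)), h3, inv_one]
      rw [(mul_eq_zero.1 h1).resolve_right h2, zero_smul]
    · intro h1
      exact absurd (Finset.mem_univ _) h1
  have h2 : x = -∑ e ∈ Finset.range (Fintype.card F - 1), y e := by rw [hsum, neg_neg]
  rw [h2]
  refine Submodule.neg_mem _ (sum_mem fun e he => ?_)
  exact Submodule.mem_iSup_of_mem e (Submodule.mem_iSup_of_mem he (hy e))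

end Cfsg.Agent.R2.H22.Q7
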