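import Cfsg.Agent.R2.H22.Q7a

/-!
# Modules of `SL(2, 7)`: the vectors fixed by `U` and the socle (helper22)
-/

set_option autoImplicit false
set_option linter.unusedSectionVars false

namespace Cfsg.Agent.R2.H22.Q7

open Matrix Cfsg.Agent.H943.SL2Rel Cfsg.Agent.H943.SL2Mod Cfsg.Agent.H943.RepAdd
open Cfsg.Agent.R2.H28.SL2

universe u v w

variable {k : Type u} [Field k] [DecidableEq k] [IsAlgClosed k] {F : Type w} [Field F] [Fintype F] [DecidableEq F]
  (ι : F →+* k) [Fact (Nat.Prime 7)] [CharP k 7] [CharP F 7] (hF : Fintype.card F = 7)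

section Nat

include hF in
theorem exists_nat (t : F) : ∃ n : ℕ, t = n := by
  obtain ⟨z, hz⟩ := (ZMod.castHom_bijective F hF).2 t
  refine ⟨z.val, ?_⟩
  rw [← hz]
  conv_lhs => rw [← ZMod.natCast_zmod_val z]
  rw [map_natCast]

end Nat

variable {V : Type v} [AddCommGroup V] [Module k V] [FiniteDimensional k V]
  {ρ : Representation k (SpecialLinearGroup (Fin 2) F) V}

include hF in
theorem Uf_eq : Uf ρ = LinearMap.ker (ρ (u 1) - 1) := by
  ext x
  rw [mem_Uf, LinearMap.mem_ker, LinearMap.sub_apply, Module.End.one_apply, sub_eq_zero]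
  refine ⟨fun hx => hx 1, fun hx t => ?_⟩
  obtain ⟨n, rfl⟩ := exists_nat hF t
  have h1 : ∀ n : ℕ, ρ (u ((n : ℕ) : F)) x = x := by
    intro n
    induction n with
    | zero => rw [Nat.cast_zero, u_zero, map_one, Module.End.one_apply]
    | succ n ih => rw [Nat.cast_succ, u_add, map_mul, Module.End.mul_apply, hx, ih]
  exact h1 n

include hF in
/-- **the dimension** -/
theorem finrank_le_uf : Module.finrank k V ≤ 7 * Module.finrank k (Uf ρ) := by
  have h1 : (ρ (u 1) - 1) ^ 7 = 0 := by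
    have h2 : (Polynomial.X - 1 : Polynomial k) ^ 7 = Polynomial.X ^ 7 - 1 := by
      rw [sub_pow_char, one_pow]
    have h3 := congrArg (Polynomial.aeval (ρ (u 1) : Module.End k V)) h2
    rw [map_pow, map_sub, Polynomial.aeval_X, map_one, map_sub, map_pow, Polynomial.aeval_X, map_one,
      u_pow_p ρ 7 (1 : F), sub_self] at h3
    exact h3
  have h2 := finrank_ker_pow_le (ρ (u 1) - 1) 7
  rw [h1, ← Uf_eq hF] at h2
  have h3 : LinearMap.ker (0 : V →ₗ[k] V) = ⊤ := LinearMap.ker_zero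
  rw [h3, finrank_top] at h2
  exact h2

include hF in
/-- the decomposition of `V ^ U` for an even module -/
theorem finrank_uf_le (hev : ∀ b ∈ cf (Sy.{u, v, w} ι 7) ρ, b % 2 = 0) :
    Module.finrank k (Uf ρ) ≤ Module.finrank k (Ew ι ρ 0) + Module.finrank k (Ew ι ρ 2) + Module.finrank k (Ew ι ρ 4) := by
  have hodd : ∀ e, e % 2 = 1 → Ew ι ρ e = ⊥ := by
    intro e he
    rw [← Submodule.finrank_eq_zero (R := k)]
    have h1 := finrank_Ew_le ι 7 ρ e
    have h2 : (cf (Sy.{u, v, w} ι 7) ρ).countP (fun b => b % (Fintype.card F - 1) = e % (Fintype.card F - 1)) = 0 := by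
      rw [Multiset.countP_eq_zero]
      intro b hb h3
      have := hev b hb
      rw [hF] at h3
      omega
    omega
  have h1 : Uf ρ ≤ Ew ι ρ 0 ⊔ Ew ι ρ 2 ⊔ Ew ι ρ 4 := by
    refine (Uf_le ι 7 ρ).trans ?_
    rw [hF]
    refine iSup₂_le fun e he => ?_
    rw [Finset.mem_range] at he
    interval_cases e
    · exact le_sup_left.trans le_sup_left
    · rw [hodd 1 rfl]; exact bot_le
    · exact le_sup_right.trans le_sup_left
    · rw [hodd 3 rfl]; exact bot_le
    · exact le_sup_right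
    · rw [hodd 5 rfl]; exact bot_le
  refine (Submodule.finrank_mono h1).trans ((Submodule.finrank_add_le_finrank_add_finrank _ _).trans ?_)
  exact Nat.add_le_add_right (Submodule.finrank_add_le_finrank_add_finrank _ _) _

include hF in
theorem isV_rb {b : ℕ} (hb : b ≤ 6) : ∃ (B : Type (max u w)) (_ : AddCommGroup B) (_ : Module k B)
    (σ : Representation k (SpecialLinearGroup (Fin 2) F) B), IsV ι 7 σ b := by
  have hb' : b ≤ Fintype.card F - 1 := by omega
  exact ⟨Vb ι b, _, _, RB ι 7 hb', hb', LinearEquiv.refl _ _, fun _ _ => rfl⟩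

include hF in
/-- **weight 0** -/
theorem six_soc (fix : ∀ x, (∀ g, ρ g x = x) → x = 0) {x : V} (hx : x ∈ Ew ι ρ 0) (hx0 : x ≠ 0) :
    ∃ (X : Submodule k V) (hX : ∀ g, ∀ y ∈ X, ρ g y ∈ X), IsV ι 7 (subRep ρ X hX) 6 ∧ x ∈ X := by
  have hh : ∀ a : Fˣ, ρ (h a) x = x := fun a => by rw [hx.2, pow_zero, one_smul]
  have hS : SS ρ x = cb k F 6 • x := by
    have h1 := fix _ (avg_fixed ρ hx.1 hh)
    rw [SS_apply]
    unfold cb
    rw [if_neg (by omega), neg_one_smul]
    exact (neg_eq_of_add_eq_zero_right h1).symm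
  obtain ⟨B, _, _, σ, hσ⟩ := isV_rb ι hF (b := 6) le_rfl
  obtain ⟨m, hm0, hmu, -⟩ := IsV.hw ι 7 hσ
  obtain ⟨f, hf, hfm⟩ := gen_hw ι 7 ρ (a := 1) (by rw [hF, pow_one]) hσ hm0 hmu hx.1 (fun a => by
    rw [hh]
    have h2 := powQ ι (F := F) a.ne_zero
    rw [hF] at h2
    rw [h2, one_smul]) hS (fun i hi h3 => by
      have : i = 0 := by omega
      subst this
      norm_num at h3)
  have hf0 : f ≠ 0 := by
    rintro rfl
    exact hx0 (by rw [← hfm]; rfl)
  have hker : LinearMap.ker f = ⊥ := by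
    rcases hσ.irr.2 (LinearMap.ker f) (fun g y hy => by
      rw [LinearMap.mem_ker] at hy ⊢
      rw [hf, hy, map_zero]) with h4 | h4
    · exact h4
    · exact absurd (LinearMap.ker_eq_top.1 h4) hf0
  have hX : ∀ g, ∀ y ∈ LinearMap.range f, ρ g y ∈ LinearMap.range f := by
    rintro g _ ⟨y, rfl⟩
    exact ⟨_, hf g y⟩
  refine ⟨LinearMap.range f, hX, ?_, ⟨m, hfm⟩⟩
  exact IsV.iso ι 7 (LinearEquiv.ofInjective f (LinearMap.ker_eq_bot.1 hker)) (fun g y => Subtype.ext (hf g y)) hσ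

include hF in
/-- **6 in the socle of the dual** -/
theorem six_dual (fix : ∀ x, (∀ g, ρ g x = x) → x = 0) {V' : Type v} [AddCommGroup V'] [Module k V']
    [FiniteDimensional k V'] {ρ' : Representation k (SpecialLinearGroup (Fin 2) F) V'} {P : V →ₗ[k] V' →ₗ[k] k}
    (D : Dul ρ ρ' P) (h' : InSoc ι 7 ρ' 6) : InSoc ι 7 ρ 6 := by
  obtain ⟨X', hX', hb'⟩ := h'
  obtain ⟨B₁, D₁, -⟩ := D.flip.sub hX'
  have hK := D.flip.orth_inv hX'
  have h2 : IsV ι 7 (quotRep ρ (orth P.flip X') hK) 6 := IsV.dual ι 7 hb' D₁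
  obtain ⟨m, hm0, hmu, hmh, hmS, -⟩ := IsV.hw ι 7 h2
  obtain ⟨x, hx⟩ := (orth P.flip X').mkQ_surjective (quotRep ρ (orth P.flip X') hK w m)
  have hmem : ∀ z : V, (orth P.flip X').mkQ z = 0 → z ∈ orth P.flip X' := fun z hz => (Submodule.Quotient.mk_eq_zero _).1 hz
  have hpow : ∀ a : Fˣ, ι (a : F) ^ 6 = 1 := by
    intro a
    have h3 := powQ ι (F := F) a.ne_zero
    rwa [hF] at h3
  obtain ⟨x₀, hx₀, hx₀h⟩ := exists_tavg ι 7 ρ (orth P.flip X') (c := 0) (x := x) (fun a => by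
    refine hmem _ ?_
    rw [map_sub, ← quotRep_mk ρ _ hK, pow_zero, one_smul, hx, apply_mul, h_w, map_mul, Module.End.mul_apply, hmh,
      hpow, one_smul, sub_self])
  have hy : ∑ t : F, ρ (u t) x₀ ∈ Ew ι ρ 0 := by
    refine ⟨fun s => ?_, fun a => ?_⟩
    · rw [map_sum]
      refine Fintype.sum_equiv (Equiv.addLeft s) _ _ fun t => ?_
      rw [apply_mul, ← u_add]
      rfl
    · rw [map_sum, pow_zero, one_smul]
      have ha : (a : F) ^ 2 ≠ 0 := pow_ne_zero _ a.ne_zero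
      refine Fintype.sum_equiv (Equiv.mulLeft₀ ((a : F) ^ 2) ha) _ _ fun t => ?_
      rw [apply_mul, h_u, map_mul, Module.End.mul_apply, hx₀h, pow_zero, one_smul]
      rfl
  have hy0 : ∑ t : F, ρ (u t) x₀ ≠ 0 := by
    intro h0
    have h3 : (orth P.flip X').mkQ x₀ = quotRep ρ (orth P.flip X') hK w m := by
      rw [← hx, ← sub_eq_zero, ← map_sub]
      exact (Submodule.Quotient.mk_eq_zero _).2 hx₀
    have h4 : SS (quotRep ρ (orth P.flip X') hK) m = 0 := by
      rw [SS_apply, ← h3]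
      have h5 : ∀ t : F, quotRep ρ (orth P.flip X') hK (u t) ((orth P.flip X').mkQ x₀) =
          (orth P.flip X').mkQ (ρ (u t) x₀) := fun t => rfl
      rw [Finset.sum_congr rfl fun t _ => h5 t, ← map_sum, h0, map_zero]
    rw [hmS] at h4
    unfold cb at h4
    rw [if_neg (by omega), neg_one_smul, neg_eq_zero] at h4
    exact hm0 h4
  obtain ⟨X, hX, hb, -⟩ := six_soc ι hF fix hy hy0
  exact ⟨X, hX, hb⟩

/-- the submodule generated by a highest weight vector -/
theorem exists_gen {e : ℕ} {x : V} (hx : x ∈ Ew ι ρ e) : ∃ N : Submodule k V, (∀ g, ∀ y ∈ N, ρ g y ∈ N) ∧ x ∈ N ∧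
    Module.finrank k N ≤ Fintype.card F + 1 := by
  classical
  let s : Finset V := insert x (Finset.univ.image fun t : F => ρ (u t) (ρ w x))
  have hsub : ∀ t : F, ρ (u t) (ρ w x) ∈ Submodule.span k (s : Set V) := fun t =>
    Submodule.subset_span (Finset.mem_coe.2 (Finset.mem_insert_of_mem (Finset.mem_image_of_mem _ (Finset.mem_univ t))))
  have hxs : x ∈ Submodule.span k (s : Set V) := Submodule.subset_span (Finset.mem_coe.2 (Finset.mem_insert_self _ _))
  have hD : UFix ρ (Submodule.span k {x}) := by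
    intro t d hd
    obtain ⟨c, rfl⟩ := Submodule.mem_span_singleton.1 hd
    rw [map_smul, hx.1]
  have key : ∀ g : SpecialLinearGroup (Fin 2) F, (∀ y ∈ (s : Set V), ρ g y ∈ Submodule.span k (s : Set V)) →
      ∀ y ∈ Submodule.span k (s : Set V), ρ g y ∈ Submodule.span k (s : Set V) := by
    intro g hg y hy
    have h1 : Submodule.span k (s : Set V) ≤ (Submodule.span k (s : Set V)).comap (ρ g) := Submodule.span_le.2 hg
    exact h1 hy
  have hs : ∀ y ∈ (s : Set V), y = x ∨ ∃ t : F, y = ρ (u t) (ρ w x) := by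
    intro y hy
    rcases Finset.mem_insert.1 (Finset.mem_coe.1 hy) with h1 | h1
    · exact Or.inl h1
    · obtain ⟨t, -, rfl⟩ := Finset.mem_image.1 h1
      exact Or.inr ⟨t, rfl⟩
  refine ⟨Submodule.span k (s : Set V), fun g => ?_, hxs, ?_⟩
  · refine induct (P := fun g => ∀ y ∈ Submodule.span k (s : Set V), ρ g y ∈ Submodule.span k (s : Set V)) ?_ ?_ ?_ ?_ g
    · intro r
      refine key _ fun y hy => ?_
      rcases hs y hy with rfl | ⟨t, rfl⟩
      · rw [hx.1]; exact hxs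
      · rw [apply_mul, ← u_add]; exact hsub _
    · intro a
      refine key _ fun y hy => ?_
      rcases hs y hy with rfl | ⟨t, rfl⟩
      · rw [hx.2]; exact Submodule.smul_mem _ _ hxs
      · rw [apply_mul3, h_u, mul_assoc, h_w, map_mul, map_mul]
        show ρ (u ((a : F) ^ 2 * t)) (ρ w (ρ (h a⁻¹) x)) ∈ _
        rw [hx.2, map_smul, map_smul]
        exact Submodule.smul_mem _ _ (hsub _)
    · refine key _ fun y hy => ?_
      rcases hs y hy with rfl | ⟨t, rfl⟩
      · have h1 := hsub 0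
        rwa [u_zero, map_one, Module.End.one_apply] at h1
      · by_cases ht : t = 0
        · rw [ht, u_zero, map_one, Module.End.one_apply, ww, hx.2]
          exact Submodule.smul_mem _ _ hxs
        · rw [wuw ρ hD ht (Submodule.mem_span_singleton_self x), hx.2, map_smul, map_smul]
          exact Submodule.smul_mem _ _ (hsub _)
    · intro a b ha hb y hy
      rw [map_mul, Module.End.mul_apply]
      exact ha _ (hb _ hy)
  · refine (finrank_span_finset_le_card s).trans ?_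
    refine (Finset.card_insert_le _ _).trans ?_
    have h1 : (Finset.univ.image fun t : F => ρ (u t) (ρ w x)).card ≤ Fintype.card F := Finset.card_image_le
    omega

/-- dimensions -/
theorem card_Bf_small {b : ℕ} (hb : b < 7) : (Bf k b).card = b + 1 := by
  have h1 := card_Bf_low k 7 b
  rw [Nat.mod_eq_of_lt hb, Nat.div_eq_of_lt hb, card_Bf_zero, mul_one] at h1
  exact h1

include hF in
/-- **weight 4** -/
theorem four_soc (hsoc : ∀ b, InSoc ι 7 ρ b → b = 4 ∨ b = 6) {x : V} (hx : x ∈ Ew ι ρ 4) (hx0 : x ≠ 0) :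
    ∃ (X : Submodule k V) (hX : ∀ g, ∀ y ∈ X, ρ g y ∈ X), IsV ι 7 (subRep ρ X hX) 4 ∧ x ∈ X := by
  obtain ⟨N, hN, hxN, hdim⟩ := exists_gen ι hx
  have hN0 : N ≠ ⊥ := by
    rintro rfl
    exact hx0 ((Submodule.mem_bot k).1 hxN)
  obtain ⟨c, hc1, hc2⟩ := exists_inSoc_sub ι 7 hN hN0
  have hlt : ∀ {A : Type v} [AddCommGroup A] [Module k A] [FiniteDimensional k A]
      (τ : Representation k (SpecialLinearGroup (Fin 2) F) A), ∀ b ∈ cf (Sy.{u, v, w} ι 7) τ, b < 7 := by
    intro A _ _ _ τ b hb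
    have := cf_lt ι 7 (a := 1) (by rw [hF, pow_one]) τ b hb
    rwa [pow_one] at this
  obtain ⟨Y, hY, hYc⟩ := hc1
  -- `x ∈ Y`
  have hxY : (⟨x, hxN⟩ : N) ∈ Y := by
    by_contra hxY
    obtain ⟨b, hb, hb4⟩ := mem_cf_of_hw ι 7 (ρ := quotRep (subRep ρ N hN) Y hY) (e := 4) (x := Y.mkQ ⟨x, hxN⟩)
      (fun h0 => hxY ((Submodule.Quotient.mk_eq_zero Y).1 h0)) (fun t => by
        rw [quotRep_mk]
        congr 1
        exact Subtype.ext (hx.1 t)) (fun a => by
        rw [quotRep_mk, ← map_smul]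
        congr 1
        exact Subtype.ext (hx.2 a))
    have hb7 := hlt _ b hb
    rw [hF] at hb4
    have hb' : b = 4 := by omega
    have h1 := finrank_cf ι 7 _ (N ⧸ Y) (quotRep (subRep ρ N hN) Y hY) le_rfl
    obtain ⟨s, hs⟩ := Multiset.exists_cons_of_mem hb
    rw [hs, Multiset.map_cons, Multiset.sum_cons, card_Bf_small hb7] at h1
    have h2 := IsV.finrank ι hYc
    have h3 : c < 7 := hlt ρ c hc2.mem_cf
    rw [card_Bf_small h3] at h2
    have h4 := Submodule.finrank_quotient_add_finrank Y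
    have h5 := hsoc c hc2
    rw [hF] at hdim
    omega
  have hc4 : c = 4 := by
    have h1 := mod_of_Ew ι 7 hYc (e := 4) (x := ⟨⟨x, hxN⟩, hxY⟩) ⟨fun t => Subtype.ext (Subtype.ext (hx.1 t)),
      fun a => Subtype.ext (Subtype.ext (hx.2 a))⟩ (fun h0 => by
        have h2 : (((⟨⟨x, hxN⟩, hxY⟩ : Y) : N) : V) = (((0 : Y) : N) : V) := by rw [h0]
        exact hx0 h2)
    rw [hF] at h1
    have h5 := hsoc c hc2
    omega
  subst hc4
  obtain ⟨hY', e, he⟩ := eqv_map (subRep ρ N hN) ρ N.subtype (fun _ _ => rfl) N.injective_subtype Y hY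
  exact ⟨Y.map N.subtype, hY', IsV.iso ι 7 e he hYc, ⟨⟨x, hxN⟩, hxY, rfl⟩⟩

end Cfsg.Agent.R2.H22.Q7
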